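import Cfsg.Agent.Lib.AltModule.P5.M1.C0
import Cfsg.Agent.Lib.AltModule.P5.M1.C1
import Cfsg.Agent.Lib.AltModule.P5.M1.C2
import Cfsg.Agent.Lib.AltModule.P5.M2
import Cfsg.Agent.Lib.AltModule.P5.M6

/-!
Every intertwiner from this module is zero.
-/

namespace Cfsg.Agent.AltMod.P5.M1

theorem final : mdl.finalOk 10 5 6 k3 0x40001000400030001000300020001000000000000000000000000000000000000000000000000000000000000000000000000000000000000000000000000000000000000000000000000000000000000000000000000000000000000000000000000000000000000000000000000 = true := by decide +kernel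

theorem tree : mdl.treeOk [(0, 0), (0, 1), (1, 0), (1, 1), (1, 2), (2, 1), (3, 1)] = true := by decide +kernel

theorem kills {V : Type*} [AddCommGroup V] [DistribMulAction (Alt 10) V]
    (hV : ∀ v : V, 5 • v = 0) (hbad : Bad 10 V subs) : Kills 10 V mdl := by
  intro φ hφ
  have hM := mdl_ok
  have a0 : mdl.AllKilled 10 5 V φ k0 := Mod.allKilled_nil φ
  have p0 : mdl.AllKilled 10 5 V φ pc0 :=
    Mod.spin_step hV hM hbad hφ (h := subs.getD 8 ([], []))
      (by decide) fix0_1 fix0_2 spin0 a0
  have a1 : mdl.AllKilled 10 5 V φ k1 := p0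
  have p1 : mdl.AllKilled 10 5 V φ pc1 := by
    refine Mod.factor_step hV hM (M2.kills hV hbad) hφ (C := c1) (fun s hs => ?_) a1 (by decide)
    change s < 5 at hs
    interval_cases s
    · exact fac1_0
    · exact fac1_1
    · exact fac1_2
    · exact fac1_3
    · exact fac1_4
  have a2 : mdl.AllKilled 10 5 V φ k2 := Mod.allKilled_append a1 p1
  have p2 : mdl.AllKilled 10 5 V φ pc2 := by
    refine Mod.factor_step hV hM (M6.kills hV hbad) hφ (C := c2) (fun s hs => ?_) a2 (by decide)
    change s < 5 at hs
    interval_cases s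
    · exact fac2_0
    · exact fac2_1
    · exact fac2_2
    · exact fac2_3
    · exact fac2_4
  have a3 : mdl.AllKilled 10 5 V φ k3 := Mod.allKilled_append a2 p2
  exact Mod.final_step hV hM hφ final tree a3

end Cfsg.Agent.AltMod.P5.M1
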