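import Cfsg.Agent.Lib.AltModule.Start
import Cfsg.Agent.Lib.AltModule.P5.Perfect
import Cfsg.Agent.Lib.AltModule.P5.M0

/-!
Every nonzero finite module of the alternating group of degree 10 in characteristic 5 has a vector
fixed by a nonsolvable subgroup.
-/

namespace Cfsg.Agent.AltMod.P5

theorem exists_fixed {V : Type*} [AddCommGroup V] [DistribMulAction (Alt 10) V] [Nontrivial V]
    [Finite V] (hV : ∀ v : V, 5 • v = 0) :
    ∃ v : V, v ≠ 0 ∧ ∃ H : Subgroup (Alt 10), ¬ IsSolvable H ∧ ∀ h ∈ H, h • v = v := by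
  haveI : Fact (Nat.Prime 5) := ⟨by norm_num⟩
  have h5 : wP 10 (M0.mdl.W 0) ^ 5 = 1 := by
    have h : weq 10 (M0.mdl.W 0 ++ M0.mdl.W 0 ++ M0.mdl.W 0 ++ M0.mdl.W 0 ++ M0.mdl.W 0) [] = true := by
      decide +kernel
    have := weq_sound h
    simp only [wP_append, wP_nil] at this
    simpa only [pow_succ, pow_zero, one_mul] using this
  obtain ⟨v, hv, h0⟩ := exists_fixed_prime hV h5
  refine exists_fixed_of_kills perfect_ok M0.mdl rfl ?_ (fun hV hbad => M0.kills hV hbad) hV hv ?_
  · intro s hs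
    change s < 1 at hs
    interval_cases s
    rfl
  · intro s hs
    change s < 1 at hs
    interval_cases s
    exact h0

end Cfsg.Agent.AltMod.P5
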